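import Cfsg.Agent.Lib.AltModule.P2.M6.C0
import Cfsg.Agent.Lib.AltModule.P2.M6.C1

/-!
Every intertwiner from this module is zero.
-/

namespace Cfsg.Agent.AltMod.P2.M6

theorem final : mdl.finalOk 9 2 6 k2 0x1000100000000000100000001000000000000000000010001000000010000000100000001000100000000 = true := by decide +kernel

theorem tree : mdl.treeOk [(0, 0), (1, 0), (2, 1)] = true := by decide +kernel

theorem kills {V : Type*} [AddCommGroup V] [DistribMulAction (Alt 9) V]
    (hV : ∀ v : V, 2 • v = 0) (hbad : Bad 9 V subs) : Kills 9 V mdl := by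
  intro φ hφ
  have hM := mdl_ok
  have a0 : mdl.AllKilled 9 2 V φ k0 := Mod.allKilled_nil φ
  have p0 : mdl.AllKilled 9 2 V φ pc0 :=
    Mod.spin_step hV hM hbad hφ (h := subs.getD 6 ([], []))
      (by decide) fix0_1 fix0_2 spin0 a0
  have a1 : mdl.AllKilled 9 2 V φ k1 := p0
  have p1 : mdl.AllKilled 9 2 V φ pc1 :=
    Mod.spin_step hV hM hbad hφ (h := subs.getD 7 ([], []))
      (by decide) fix1_1 fix1_2 spin1 a1
  have a2 : mdl.AllKilled 9 2 V φ k2 := Mod.allKilled_append a1 p1
  exact Mod.final_step hV hM hφ final tree a2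

end Cfsg.Agent.AltMod.P2.M6
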