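import Cfsg.Agent.Lib.AltModule.P2.M0.C0
import Cfsg.Agent.Lib.AltModule.P2.M0.C1
import Cfsg.Agent.Lib.AltModule.P2.M0.C2
import Cfsg.Agent.Lib.AltModule.P2.M0.C3
import Cfsg.Agent.Lib.AltModule.P2.M0.C4
import Cfsg.Agent.Lib.AltModule.P2.M0.C5
import Cfsg.Agent.Lib.AltModule.P2.M0.C6
import Cfsg.Agent.Lib.AltModule.P2.M0.C7
import Cfsg.Agent.Lib.AltModule.P2.M1
import Cfsg.Agent.Lib.AltModule.P2.M5
import Cfsg.Agent.Lib.AltModule.P2.M6

/-!
Every intertwiner from this module is zero.
-/

namespace Cfsg.Agent.AltMod.P2.M0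

theorem final : mdl.finalOk 9 2 0 k8 0x100010001000100000000000100010001000100010000000000010000000100000001000100010000000000010000000000000001000100000001000100010000000100000001000000010001000100010000000100010001 = true := by decide +kernel

theorem tree : mdl.treeOk [] = true := by decide +kernel

theorem kills {V : Type*} [AddCommGroup V] [DistribMulAction (Alt 9) V]
    (hV : ∀ v : V, 2 • v = 0) (hbad : Bad 9 V subs) : Kills 9 V mdl := by
  intro φ hφ
  have hM := mdl_ok
  have a0 : mdl.AllKilled 9 2 V φ k0 := Mod.allKilled_nil φ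
  have p0 : mdl.AllKilled 9 2 V φ pc0 :=
    Mod.spin_step hV hM hbad hφ (h := subs.getD 0 ([], []))
      (by decide) fix0_1 fix0_2 spin0 a0
  have a1 : mdl.AllKilled 9 2 V φ k1 := p0
  have p1 : mdl.AllKilled 9 2 V φ pc1 :=
    Mod.spin_step hV hM hbad hφ (h := subs.getD 0 ([], []))
      (by decide) fix1_1 fix1_2 spin1 a1
  have a2 : mdl.AllKilled 9 2 V φ k2 := Mod.allKilled_append a1 p1
  have p2 : mdl.AllKilled 9 2 V φ pc2 :=
    Mod.spin_step hV hM hbad hφ (h := subs.getD 2 ([], []))
      (by decide) fix2_1 fix2_2 spin2 a2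
  have a3 : mdl.AllKilled 9 2 V φ k3 := Mod.allKilled_append a2 p2
  have p3 : mdl.AllKilled 9 2 V φ pc3 :=
    Mod.spin_step hV hM hbad hφ (h := subs.getD 2 ([], []))
      (by decide) fix3_1 fix3_2 spin3 a3
  have a4 : mdl.AllKilled 9 2 V φ k4 := Mod.allKilled_append a3 p3
  have p4 : mdl.AllKilled 9 2 V φ pc4 :=
    Mod.spin_step hV hM hbad hφ (h := subs.getD 0 ([], []))
      (by decide) fix4_1 fix4_2 spin4 a4
  have a5 : mdl.AllKilled 9 2 V φ k5 := Mod.allKilled_append a4 p4
  have p5 : mdl.AllKilled 9 2 V φ pc5 := by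
    refine Mod.factor_step hV hM (M1.kills hV hbad) hφ (C := c5) (fun s hs => ?_) a5 (by decide)
    change s < 4 at hs
    interval_cases s
    · exact fac5_0
    · exact fac5_1
    · exact fac5_2
    · exact fac5_3
  have a6 : mdl.AllKilled 9 2 V φ k6 := Mod.allKilled_append a5 p5
  have p6 : mdl.AllKilled 9 2 V φ pc6 := by
    refine Mod.factor_step hV hM (M5.kills hV hbad) hφ (C := c6) (fun s hs => ?_) a6 (by decide)
    change s < 4 at hs
    interval_cases s
    · exact fac6_0
    · exact fac6_1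
    · exact fac6_2
    · exact fac6_3
  have a7 : mdl.AllKilled 9 2 V φ k7 := Mod.allKilled_append a6 p6
  have p7 : mdl.AllKilled 9 2 V φ pc7 := by
    refine Mod.factor_step hV hM (M6.kills hV hbad) hφ (C := c7) (fun s hs => ?_) a7 (by decide)
    change s < 4 at hs
    interval_cases s
    · exact fac7_0
    · exact fac7_1
    · exact fac7_2
    · exact fac7_3
  have a8 : mdl.AllKilled 9 2 V φ k8 := Mod.allKilled_append a7 p7
  exact Mod.final_step hV hM hφ final tree a8

end Cfsg.Agent.AltMod.P2.M0
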