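import Cfsg.Agent.Lib.AltModule.Start
import Cfsg.Agent.Lib.AltModule.P2.Perfect
import Cfsg.Agent.Lib.AltModule.P2.M0

/-!
Every nonzero module of the alternating group of degree 9 in characteristic 2 has a vector fixed
by a nonsolvable subgroup.
-/

namespace Cfsg.Agent.AltMod.P2

theorem exists_fixed {V : Type*} [AddCommGroup V] [DistribMulAction (Alt 9) V] [Nontrivial V]
    (hV : ∀ v : V, 2 • v = 0) :
    ∃ v : V, v ≠ 0 ∧ ∃ H : Subgroup (Alt 9), ¬ IsSolvable H ∧ ∀ h ∈ H, h • v = v := by
  have sq : ∀ w : List ℕ, weq 9 (w ++ w) [] = true → wP 9 w * wP 9 w = 1 := fun w h => by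
    rw [← wP_append, weq_sound h, wP_nil]
  obtain ⟨v, hv, h0, h1, h2⟩ := exists_fixed_two hV
    (sq (M0.mdl.W 0) (by decide +kernel)) (sq (M0.mdl.W 1) (by decide +kernel))
    (sq (M0.mdl.W 2) (by decide +kernel))
    (by rw [← wP_append, ← wP_append]; exact weq_sound (by decide +kernel))
    (by rw [← wP_append, ← wP_append]; exact weq_sound (by decide +kernel))
    (by rw [← wP_append, ← wP_append, ← wP_append]; exact weq_sound (by decide +kernel))
  refine exists_fixed_of_kills perfect_ok M0.mdl rfl ?_ (fun hV hbad => M0.kills hV hbad) hV hv ?_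
  · intro s hs
    change s < 3 at hs
    interval_cases s <;> rfl
  · intro s hs
    change s < 3 at hs
    interval_cases s
    exacts [h0, h1, h2]

end Cfsg.Agent.AltMod.P2
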